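import Cfsg.Agent.H308.CA.Ext
import Cfsg.Agent.H308.CA.Main3

/-!
# No involution of type `A₁A₅` is central in a Carter subgroup (S3852, `E₆^ε(q)`, `q` odd)
-/

set_option autoImplicit false
set_option linter.unusedSectionVars false
set_option linter.unusedVariables false

namespace Cfsg.Agent.H308.Car

open Subgroup Pointwise Matrix
open Cfsg.Agent.Solvable.Carter Cfsg.Agent.H18.Carter Cfsg.Agent.H381.Car Cfsg.Agent.H308.CA

universe u

/-- the property `SixJ` of `H607/Car/E6Def`, unfolded -/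
def Six1 (X : Type*) [Group X] (t0 : X) : Prop :=
  ∃ (p : ℕ) (_ : p.Prime) (_ : p ≠ 2) (E : Type) (_ : CommRing E) (_ : StarRing E) (_ : Gd E) (_ : CharP E p)
    (j : CA.SU (Fin 6) E →* X), j.ker ≤ Subgroup.center _ ∧
    (∀ α : MulAut X, α t0 = t0 → ∀ u, ∃ v, α (j u) = j v) ∧
    (∀ u, t0 * j u = j u * t0) ∧
    ∀ u : CA.SU (Fin 6) E, mt u = Matrix.diagonal (fun i : Fin 6 => if (i : ℕ) < 2 then (-1 : E) else 1) →
      IsConj (j u) t0 ∧ j u ≠ t0

/-- `6 = 2 + 4` -/
theorem six_eq (s : Finset ℕ) (h : 6 = ∑ a ∈ s, 2 ^ a) : 1 ∈ s := by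
  have h2 : (fun s : Finset ℕ => ∑ i ∈ s, 2 ^ i) {1, 2} = (fun s : Finset ℕ => ∑ i ∈ s, 2 ^ i) s := by
    simp only
    rw [← h]
    decide
  have h3 := Finset.geomSum_injective le_rfl h2
  rw [← h3]
  decide

theorem no_six_aux (hFp : Fpf.{u}) {G : Type u} [Group G] [Finite G] {S : Subgroup G} [S.Normal] (c : Ctx G S)
    {X : Type} [Group X] (e : S ≃* X) {t0 : X} (h6 : Six1 X t0) {K : Subgroup G} (hK : IsCarter K) {t : G}
    (htS : t ∈ S) (hKt : K ≤ centralizer ({t} : Set G)) (ht : e ⟨t, htS⟩ = t0) : False := by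
  obtain ⟨p, hp, hp2, E, i1, i2, h, hch, j, hj, hα, hcm, hd⟩ := h6
  -- the centraliser
  set Γ : Subgroup G := centralizer ({t} : Set G) with hΓ
  have hmem : ∀ u, ((e.symm (j u) : S) : G) ∈ Γ := by
    intro u
    rw [hΓ, mem_centralizer_singleton_iff]
    have h1 : e.symm (j u) * ⟨t, htS⟩ = ⟨t, htS⟩ * e.symm (j u) := by
      apply e.injective
      rw [map_mul, map_mul, e.apply_symm_apply, ht, hcm]
    exact congrArg Subtype.val h1
  let j' : CA.SU (Fin 6) E →* Γ :=
    { toFun := fun u => ⟨_, hmem u⟩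
      map_one' := Subtype.ext (by
        change ((e.symm (j 1) : S) : G) = 1
        rw [map_one, map_one]; rfl)
      map_mul' := fun u v => Subtype.ext (by
        change ((e.symm (j (u * v)) : S) : G) = (e.symm (j u) : S) * (e.symm (j v) : S)
        rw [map_mul, map_mul]; rfl) }
  have hj'c : ∀ u, ((j' u : Γ) : G) = (e.symm (j u) : S) := fun u => rfl
  have hj' : j'.ker ≤ Subgroup.center _ := by
    intro u hu
    apply hj
    rw [MonoidHom.mem_ker] at hu ⊢
    have h1 := congrArg Subtype.val hu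
    rw [hj'c] at h1
    have h2 : e.symm (j u) = 1 := Subtype.ext h1
    rw [← e.apply_symm_apply (j u), h2, map_one]
  have hN : ∀ (g : Γ) u, ∃ v, g * j' u * g⁻¹ = j' v := by
    intro g u
    let α : MulAut X := (MulAut.congr e) (MulAut.conjNormal (g : G))
    have hαa : ∀ x, α x = e (MulAut.conjNormal (g : G) (e.symm x)) := fun x => rfl
    have h1 : α t0 = t0 := by
      rw [hαa, ← ht, e.symm_apply_apply]
      congr 1
      apply Subtype.ext
      rw [MulAut.conjNormal_apply]
      change (g : G) * t * (g : G)⁻¹ = t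
      rw [mem_centralizer_singleton_iff.1 g.2, mul_inv_cancel_right]
    obtain ⟨v, hv⟩ := hα α h1 u
    refine ⟨v, Subtype.ext ?_⟩
    rw [hαa] at hv
    change (g : G) * (e.symm (j u) : S) * (g : G)⁻¹ = (e.symm (j v) : S)
    rw [← hv, e.symm_apply_apply, MulAut.conjNormal_apply]
  obtain ⟨T, hT⟩ := exists_ta' h (by norm_num) j' hj' hN
  have hS' : Sml Γ := Sml.subgroup c.min Γ
  have hK' : IsCarter (K.subgroupOf Γ) := hK.subgroupOf hKt
  obtain ⟨s, f, hsys⟩ := claim2 hFp hp hp2 6 Γ (Fin 6) E h T hS' (K.subgroupOf Γ) hK' (Fintype.card_fin 6)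
  have h1s : 1 ∈ s := six_eq s (by
    rw [← Cfsg.Agent.H55.CA.card_eq_sum h s f hsys.isP hsys.orth hsys.sum hsys.rk, Fintype.card_fin])
  set e1 := f 1 with he1
  have hP : IsP e1 := hsys.isP 1 h1s
  have hr : rk e1 = 2 := by rw [he1, hsys.rk 1 h1s]; norm_num
  have hfix : ∀ k ∈ K.subgroupOf Γ, T.ρ k e1 = e1 := hsys.fix 1 h1s
  -- the standard element
  have hE := h.nontrivial
  set dp : Matrix (Fin 6) (Fin 6) E := dg (fun i : Fin 6 => (i : ℕ) < 2) with hdp
  have hdpP : IsP dp := by
    constructor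
    · rw [hdp, dg, diagonal_mul_diagonal]
      congr 1
      funext i
      split_ifs <;> simp
    · rw [hdp, dg, star_eq_conjTranspose, diagonal_conjTranspose]
      congr 1
      funext i
      rw [Pi.star_apply]
      split_ifs <;> simp
  have hdpr : rk dp = 2 := by
    have h1 := Cfsg.Agent.H248.CA.rk_conj h (1 : CA.SU (Fin 6) E) (fun i : Fin 6 => (i : ℕ) < 2)
    rw [map_one, star_one, one_mul, mul_one] at h1
    rw [hdp, h1]
    decide
  obtain ⟨g, hg⟩ := fam_st h (Fin 6) Bool (fun b => if b then e1 else 1 - e1) (fun b => if b then dp else 1 - dp)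
    (by
      intro b
      cases b
      · exact Cfsg.Agent.H55.CA.isP_one_sub hP
      · exact hP)
    (by
      intro b b' hb
      cases b <;> cases b'
      · exact absurd rfl hb
      · change (1 - e1) * e1 = 0
        rw [sub_mul, one_mul, hP.idem, sub_self]
      · change e1 * (1 - e1) = 0
        rw [mul_sub, mul_one, hP.idem, sub_self]
      · exact absurd rfl hb)
    (by
      rw [Fintype.sum_bool]
      change e1 + (1 - e1) = 1
      rw [add_sub_cancel])
    (by
      intro b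
      cases b
      · exact Cfsg.Agent.H55.CA.isP_one_sub hdpP
      · exact hdpP)
    (by
      intro b b' hb
      cases b <;> cases b'
      · exact absurd rfl hb
      · change (1 - dp) * dp = 0
        rw [sub_mul, one_mul, hdpP.idem, sub_self]
      · change dp * (1 - dp) = 0
        rw [mul_sub, mul_one, hdpP.idem, sub_self]
      · exact absurd rfl hb)
    (by
      rw [Fintype.sum_bool]
      change dp + (1 - dp) = 1
      rw [add_sub_cancel])
    (by
      intro b
      have a1 := Cfsg.Agent.H55.CA.rk_sub h hP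
      have a2 := Cfsg.Agent.H55.CA.rk_sub h hdpP
      cases b
      · change rk (1 - e1) = rk (1 - dp)
        omega
      · change rk e1 = rk dp
        rw [hr, hdpr])
  have hg1 : mt g * e1 * star (mt g) = dp := hg true
  -- `d = 1 - 2 dp`
  have hdm : (Matrix.diagonal (fun i : Fin 6 => if (i : ℕ) < 2 then (-1 : E) else 1)) = 1 - (2 : E) • dp := by
    rw [hdp, dg, ← diagonal_one, ← diagonal_smul, diagonal_sub]
    congr 1
    funext i
    rw [Pi.smul_apply, smul_eq_mul]
    split_ifs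
    · ring
    · ring
  obtain ⟨d, hdd⟩ : ∃ d : CA.SU (Fin 6) E, mt d = Matrix.diagonal (fun i : Fin 6 => if (i : ℕ) < 2 then (-1 : E) else 1) := by
    refine ⟨mkSU (Matrix.diagonal (fun i : Fin 6 => if (i : ℕ) < 2 then (-1 : E) else 1)) ?_ ?_, rfl⟩
    · rw [star_eq_conjTranspose, diagonal_conjTranspose, diagonal_mul_diagonal, ← diagonal_one]
      congr 1
      funext i
      rw [Pi.star_apply]
      split_ifs <;> simp
    · rw [det_diagonal, Fin.prod_univ_six]
      simp
  obtain ⟨hd1, hd2⟩ := hd d hdd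
  set u : CA.SU (Fin 6) E := g⁻¹ * d * g with hu
  have hum : mt u = 1 - (2 : E) • e1 := by
    have h1 : e1 = star (mt g) * dp * mt g := by
      rw [← hg1]
      calc e1 = (star (mt g) * mt g) * e1 * (star (mt g) * mt g) := by rw [star_mt_mul, one_mul, mul_one]
        _ = _ := by simp only [mul_assoc]
    rw [hu, map_mul, map_mul, mt_inv, hdd, hdm, mul_sub, sub_mul, mul_one, star_mt_mul, mul_smul_comm, smul_mul_assoc,
      ← h1]
  -- `K` centralises `j u`
  have hact : ∀ k ∈ K.subgroupOf Γ, T.act (Cfsg.Agent.H35.CA.det_st h) k u = u := by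
    intro k hk
    apply mt_injective
    have e2 : ∀ a : Matrix (Fin 6) (Fin 6) E, (2 : E) • a = a + a := fun a => two_smul E a
    rw [T.mt_act, hum, e2, map_sub, map_one, map_add, hfix k hk]
  have hKu : K ≤ centralizer ({((e.symm (j u) : S) : G)} : Set G) := by
    intro k hk
    have h1 := T.conj_eq (Cfsg.Agent.H35.CA.det_st h) ⟨k, hKt hk⟩ u
    rw [hact ⟨k, hKt hk⟩ hk, hT] at h1
    have h2 := congrArg Subtype.val h1
    change k * (e.symm (j u) : S) * k⁻¹ = (e.symm (j u) : S) at h2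
    rw [mem_centralizer_singleton_iff]
    exact mul_inv_eq_iff_eq_mul.1 h2
  -- conjugacy
  obtain ⟨x, hx⟩ := isConj_iff.1 hd1.symm
  have hju : j u = (j g⁻¹ * x) * t0 * (j g⁻¹ * x)⁻¹ := by
    rw [hu, map_mul, map_mul, ← hx, map_inv]
    group
  have hG : ((e.symm (j u) : S) : G) = (e.symm (j g⁻¹ * x) : S) * t * ((e.symm (j g⁻¹ * x) : S) : G)⁻¹ := by
    have h1 : e.symm (j u) = e.symm (j g⁻¹ * x) * ⟨t, htS⟩ * (e.symm (j g⁻¹ * x))⁻¹ := by
      apply e.injective
      calc e (e.symm (j u)) = j u := e.apply_symm_apply _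
        _ = (j g⁻¹ * x) * t0 * (j g⁻¹ * x)⁻¹ := hju
        _ = e (e.symm (j g⁻¹ * x)) * e ⟨t, htS⟩ * (e (e.symm (j g⁻¹ * x)))⁻¹ := by
          rw [e.apply_symm_apply, ht]
        _ = _ := by simp only [map_mul, map_inv]
    exact congrArg Subtype.val h1
  have h3 := c.eq_of_conj hK hKt (g := ((e.symm (j g⁻¹ * x) : S) : G)) (by rw [← hG]; exact hKu)
  rw [← hG] at h3
  have h4 : j u = t0 := by
    rw [← ht, ← e.apply_symm_apply (j u)]
    congr 1
    exact Subtype.ext h3
  apply hd2
  calc j d = j g * j u * (j g)⁻¹ := by rw [hu, map_mul, map_mul, map_inv]; group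
    _ = t0 := by rw [h4, ← hcm, mul_inv_cancel_right]

/-- **(B)** -/
theorem no_six (hFp : Fpf.{u}) {G : Type u} [Group G] [Finite G] {S : Subgroup G} [S.Normal] (c : Ctx G S)
    {X : Type} [Group X] (e : S ≃* X) {t0 : X} (h6 : Six1 X t0) {K : Subgroup G} (hK : IsCarter K) {t : G}
    (htS : t ∈ S) (hKt : K ≤ centralizer ({t} : Set G)) (ht : IsConj (e ⟨t, htS⟩) t0) : False := by
  obtain ⟨x, hx⟩ := isConj_iff.1 ht
  refine no_six_aux hFp c (e.trans (MulAut.conj x)) h6 hK htS hKt ?_
  exact hx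

end Cfsg.Agent.H308.Car
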